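import Mathlib
import Cfsg.Agent.Lib.Helper35.JR.Defs
import Cfsg.Agent.Lib.Helper67.JR.MultB

/-!
# Project JR (S3206): package [MULT]

First half: the preimage in `L` of a Sylow 2-subgroup of `G ≅ L/Z` is commutative
(commutator form composed with a character of `Z`, index chain, fusion).
-/

set_option autoImplicit false

namespace Cfsg.Agent.Lib.Helper67.JR

open Cfsg.Agent.Lib.Helper35.JR

universe u

/-- two non-trivial square roots of one in the units of `ℂ` multiply to one -/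
theorem sign_mul_jr (s t : ℂˣ) (hs : s ^ 2 = 1) (ht : t ^ 2 = 1) (hs1 : s ≠ 1) (ht1 : t ≠ 1) :
    s * t = 1 := by
  have key : ∀ a : ℂˣ, a ^ 2 = 1 → a ≠ 1 → (a : ℂ) = -1 := by
    intro a ha ha1
    have h0 : (a : ℂ) ^ 2 = 1 := by
      have := congrArg (fun w : ℂˣ => (w : ℂ)) ha
      simpa using this
    have h1 : ((a : ℂ) - 1) * ((a : ℂ) + 1) = 0 := by
      linear_combination h0
    rcases mul_eq_zero.mp h1 with h | h
    · exact absurd (Units.ext (by simpa using sub_eq_zero.mp h)) ha1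
    · exact eq_neg_of_add_eq_zero_left h
  have hst : s = t := Units.ext (by rw [key s hs hs1, key t ht ht1])
  rw [hst, ← sq, ht]

theorem index_ker_le_two_jr {A : Type*} [Group A] (g : A →* ℂˣ) (hg : ∀ v, g v ^ 2 = 1) :
    g.ker.index ≤ 2 := by
  by_cases h : ∀ v, g v = 1
  · have : g.ker = ⊤ := by
      rw [eq_top_iff]
      intro v _
      exact MonoidHom.mem_ker.mpr (h v)
    rw [this, Subgroup.index_top]
    norm_num
  · push_neg at h
    obtain ⟨a, ha⟩ := h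
    have : g.ker.index = 2 := by
      rw [Subgroup.index_eq_two_iff]
      refine ⟨a, fun b => ?_⟩
      by_cases hb : g b = 1
      · right
        refine ⟨MonoidHom.mem_ker.mpr hb, ?_⟩
        rw [MonoidHom.mem_ker, map_mul, hb, one_mul]
        exact ha
      · left
        refine ⟨?_, fun h' => hb (MonoidHom.mem_ker.mp h')⟩
        rw [MonoidHom.mem_ker, map_mul]
        exact sign_mul_jr _ _ (hg b) (hg a) hb ha
    rw [this]

theorem index_dbl_jr {A : Type*} [Group A] [Finite A] (P Q : Subgroup A) (hPQ : P ≤ Q)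
    (hne : ∃ b ∈ Q, b ∉ P) : 2 * Q.index ≤ P.index := by
  have h1 := Subgroup.relIndex_mul_index hPQ
  have h2 : P.relIndex Q ≠ 1 := by
    intro h
    obtain ⟨b, hbQ, hbP⟩ := hne
    exact hbP ((Subgroup.relIndex_eq_one.mp h) hbQ)
  have h3 : P.relIndex Q ≠ 0 := by
    unfold Subgroup.relIndex
    exact Subgroup.index_ne_zero_of_finite
  have h4 : 2 ≤ P.relIndex Q := by omega
  calc 2 * Q.index ≤ P.relIndex Q * Q.index := Nat.mul_le_mul_right _ h4
    _ = P.index := h1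

theorem mult_abelian (G : Type u) [Group G] [Finite G] (hS8 : S8 G) (hFus : Fus G)
    (L : Type) [Group L] [Finite L] (Z : Subgroup L) [Z.Normal]
    (hZc : Z ≤ Subgroup.center L) (e : L ⧸ Z ≃* G) (S : Sylow 2 G) :
    ∀ x y : L, e (QuotientGroup.mk x) ∈ (S : Subgroup G) →
      e (QuotientGroup.mk y) ∈ (S : Subgroup G) → x * y = y * x := by
  classical
  let π : L →* G := e.toMonoidHom.comp (QuotientGroup.mk' Z)
  have hπ : ∀ x : L, π x = e (QuotientGroup.mk x) := fun x => rfl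
  have hπsurj : Function.Surjective π := by
    intro g
    obtain ⟨q, hq⟩ := e.surjective g
    obtain ⟨x, rfl⟩ := QuotientGroup.mk_surjective q
    exact ⟨x, hq⟩
  have hker : ∀ x : L, π x = 1 ↔ x ∈ Z := by
    intro x
    rw [hπ, MulEquiv.map_eq_one_iff, QuotientGroup.eq_one_iff]
  obtain ⟨hcard, hexp⟩ := hS8 S
  have hScomm : ∀ a ∈ (S : Subgroup G), ∀ b ∈ (S : Subgroup G), a * b = b * a := by
    intro a ha b hb
    have h1 := hexp a ha
    have h2 := hexp b hb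
    have h3 := hexp (a * b) (Subgroup.mul_mem _ ha hb)
    have ha' : a⁻¹ = a := by rw [inv_eq_iff_mul_eq_one, ← sq, h1]
    have hb' : b⁻¹ = b := by rw [inv_eq_iff_mul_eq_one, ← sq, h2]
    have hab' : (a * b)⁻¹ = a * b := by rw [inv_eq_iff_mul_eq_one, ← sq, h3]
    rw [← hab', mul_inv_rev, ha', hb']
  let H : Subgroup L := (S : Subgroup G).comap π
  have hmemH : ∀ l : L, l ∈ H ↔ π l ∈ (S : Subgroup G) := fun l => Iff.rfl
  have hcen : ∀ z ∈ Z, ∀ l : L, l * z = z * l :=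
    fun z hz l => (Subgroup.mem_center_iff.mp (hZc hz)) l
  have hcomZ : ∀ u ∈ H, ∀ v ∈ H, u * v * u⁻¹ * v⁻¹ ∈ Z := by
    intro u hu v hv
    rw [← hker]
    simp only [map_mul, map_inv]
    rw [hScomm _ hu _ hv]
    group
  have hsqZ : ∀ u ∈ H, u * u ∈ Z := by
    intro u hu
    rw [← hker, map_mul, ← sq]
    exact hexp _ hu
  intro x y hx hy
  by_contra hxy
  have hx' : x ∈ H := hx
  have hy' : y ∈ H := hy
  have hz₀ : x * y * x⁻¹ * y⁻¹ ∈ Z := hcomZ x hx' y hy'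
  have hz₀1 : (⟨x * y * x⁻¹ * y⁻¹, hz₀⟩ : ↥Z) ≠ 1 := by
    intro h
    have h1 : x * y * x⁻¹ * y⁻¹ = 1 := congrArg Subtype.val h
    apply hxy
    have : x * y = (x * y * x⁻¹ * y⁻¹) * (y * x) := by group
    rw [this, h1, one_mul]
  letI : CommGroup ↥Z := { (inferInstance : Group ↥Z) with
    mul_comm := fun a b => Subtype.ext (hcen b b.2 a) }
  haveI : NeZero ((Monoid.exponent ↥Z : ℕ) : ℂ) :=
    ⟨by exact_mod_cast Monoid.exponent_ne_zero_of_finite⟩
  obtain ⟨χ, hχ⟩ := CommGroup.exists_apply_ne_one_of_hasEnoughRootsOfUnity ↥Z ℂ hz₀1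
  let ψ : L → ℂˣ := fun l => if h : l ∈ Z then χ ⟨l, h⟩ else 1
  have hψZ : ∀ (l : L) (h : l ∈ Z), ψ l = χ ⟨l, h⟩ := fun l h => dif_pos h
  have hψmul : ∀ a ∈ Z, ∀ b ∈ Z, ψ (a * b) = ψ a * ψ b := by
    intro a ha b hb
    rw [hψZ a ha, hψZ b hb, hψZ (a * b) (Z.mul_mem ha hb), ← map_mul]
    rfl
  have hψ1 : ψ 1 = 1 := by
    rw [hψZ 1 Z.one_mem]
    exact map_one χ
  have hcomm_mul : ∀ u ∈ H, ∀ v ∈ H, ∀ w ∈ H,
      u * (v * w) * u⁻¹ * (v * w)⁻¹ = (u * v * u⁻¹ * v⁻¹) * (u * w * u⁻¹ * w⁻¹) := by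
    intro u hu v hv w hw
    have hc := hcen _ (hcomZ u hu w hw) v⁻¹
    have h1 : u * (v * w) * u⁻¹ * (v * w)⁻¹ = u * v * u⁻¹ * ((u * w * u⁻¹ * w⁻¹) * v⁻¹) := by
      group
    rw [h1, ← hc]
    group
  let f : ↥H → (↥H →* ℂˣ) := fun u =>
    MonoidHom.mk' (fun v => ψ ((u : L) * (v : L) * (u : L)⁻¹ * (v : L)⁻¹)) (by
      intro v w
      have := hcomm_mul u u.2 v v.2 w w.2
      simp only [Subgroup.coe_mul]
      rw [this]
      exact hψmul _ (hcomZ u u.2 v v.2) _ (hcomZ u u.2 w w.2))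
  have hf : ∀ u v : ↥H, f u v = ψ ((u : L) * (v : L) * (u : L)⁻¹ * (v : L)⁻¹) :=
    fun u v => rfl
  have hfZr : ∀ u v : ↥H, (v : L) ∈ Z → f u v = 1 := by
    intro u v hv
    rw [hf]
    have : (u : L) * v * (u : L)⁻¹ * (v : L)⁻¹ = 1 := by
      rw [hcen _ hv u]
      group
    rw [this, hψ1]
  have hfZl : ∀ u v : ↥H, (u : L) ∈ Z → f u v = 1 := by
    intro u v hu
    rw [hf]
    have : (u : L) * v * (u : L)⁻¹ * (v : L)⁻¹ = 1 := by
      rw [← hcen _ hu v]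
      group
    rw [this, hψ1]
  have hfsq : ∀ u v : ↥H, f u v ^ 2 = 1 := by
    intro u v
    rw [← map_pow]
    apply hfZr
    rw [Subgroup.coe_pow, sq]
    exact hsqZ _ v.2
  have hfself : ∀ u : ↥H, f u u = 1 := by
    intro u
    rw [hf]
    have : (u : L) * u * (u : L)⁻¹ * (u : L)⁻¹ = 1 := by group
    rw [this, hψ1]
  have hfsymm : ∀ u v : ↥H, f u v = 1 → f v u = 1 := by
    intro u v h
    have h1 : f u v * f v u = 1 := by
      rw [hf, hf, ← hψmul _ (hcomZ u u.2 v v.2) _ (hcomZ v v.2 u u.2)]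
      have : (u : L) * v * (u : L)⁻¹ * (v : L)⁻¹ * ((v : L) * u * (v : L)⁻¹ * (u : L)⁻¹) = 1 := by
        group
      rw [this, hψ1]
    rw [h, one_mul] at h1
    exact h1
  let ρ : ↥H →* G := π.comp H.subtype
  have hρker : ∀ u : ↥H, u ∈ ρ.ker ↔ (u : L) ∈ Z := fun u => by
    rw [MonoidHom.mem_ker]
    exact hker u
  have hρrange : ρ.range = (S : Subgroup G) := by
    ext g
    constructor
    · rintro ⟨u, rfl⟩
      exact u.2
    · intro hg
      obtain ⟨l, rfl⟩ := hπsurj g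
      exact ⟨⟨l, hg⟩, rfl⟩
  have hZAidx : ρ.ker.index = 8 := by
    rw [Subgroup.index_ker, hρrange]
    exact hcard
  have hP5 : ∀ r : ↥H, (r : L) ∉ Z → (∀ v : ↥H, f r v = 1) → ∀ u v : ↥H, f u v = 1 := by
    intro r hrZ hr u v
    by_cases huZ : (u : L) ∈ Z
    · exact hfZl u v huZ
    have hr1 : π r ≠ 1 := fun h => hrZ ((hker _).mp h)
    have hu1 : π u ≠ 1 := fun h => huZ ((hker _).mp h)
    obtain ⟨n, hn, hnr⟩ := hFus S (π r) r.2 hr1 (π u) u.2 hu1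
    obtain ⟨m, rfl⟩ := hπsurj n
    have hv' : m⁻¹ * (v : L) * m ∈ H := by
      rw [hmemH]
      have h1 := (Subgroup.mem_normalizer_iff.mp hn) (π (m⁻¹ * (v : L) * m))
      have h2 : π m * π (m⁻¹ * (v : L) * m) * (π m)⁻¹ = π v := by
        simp only [map_mul, map_inv]
        group
      rw [h2] at h1
      exact h1.mpr v.2
    have hz : (u : L) * (m * (r : L) * m⁻¹)⁻¹ ∈ Z := by
      rw [← hker]
      simp only [map_mul, map_inv]
      rw [hnr]
      group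
    obtain ⟨z, hzdef⟩ : ∃ z : L, z = (u : L) * (m * (r : L) * m⁻¹)⁻¹ := ⟨_, rfl⟩
    obtain ⟨c, hcdef⟩ : ∃ c : L, c = (r : L) * (m⁻¹ * (v : L) * m) * (r : L)⁻¹ *
      (m⁻¹ * (v : L) * m)⁻¹ := ⟨_, rfl⟩
    have hzZ : z ∈ Z := hzdef ▸ hz
    have hcZ : c ∈ Z := hcdef ▸ hcomZ r r.2 _ hv'
    have key : (u : L) * v * (u : L)⁻¹ * (v : L)⁻¹ = c := by
      have h1 : (u : L) * v * (u : L)⁻¹ * (v : L)⁻¹ = z * (m * c * m⁻¹) * ((v : L) * z⁻¹ * (v : L)⁻¹) := by
        rw [hzdef, hcdef]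
        group
      have h2 : (v : L) * z⁻¹ * (v : L)⁻¹ = z⁻¹ := by
        rw [hcen _ (Z.inv_mem hzZ) v, mul_inv_cancel_right]
      have h3 : m * c * m⁻¹ = c := by
        rw [hcen _ hcZ m, mul_inv_cancel_right]
      rw [h1, h2, h3, ← hcen _ hzZ c, mul_inv_cancel_right]
    rw [hf, key, hcdef]
    exact hr ⟨_, hv'⟩
  set x' : ↥H := ⟨x, hx'⟩ with hx'def
  set y' : ↥H := ⟨y, hy'⟩ with hy'def
  have hxy1 : f x' y' ≠ 1 := by
    rw [hf, hψZ _ hz₀]
    exact hχ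
  have hyx1 : f y' x' ≠ 1 := fun h => hxy1 (hfsymm _ _ h)
  have hD4 : ((f x').ker ⊓ (f y').ker).index ≤ 4 := by
    calc ((f x').ker ⊓ (f y').ker).index ≤ (f x').ker.index * (f y').ker.index :=
          Subgroup.index_inf_le
      _ ≤ 2 * 2 := Nat.mul_le_mul (index_ker_le_two_jr _ (hfsq x')) (index_ker_le_two_jr _ (hfsq y'))
  have hZD : ρ.ker ≤ (f x').ker ⊓ (f y').ker := by
    intro v hv
    have hvZ := (hρker v).mp hv
    exact ⟨MonoidHom.mem_ker.mpr (hfZr x' v hvZ), MonoidHom.mem_ker.mpr (hfZr y' v hvZ)⟩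
  have hexr : ∃ r : ↥H, r ∈ (f x').ker ⊓ (f y').ker ∧ (r : L) ∉ Z := by
    by_contra hcon
    push_neg at hcon
    have hle : (f x').ker ⊓ (f y').ker ≤ ρ.ker := fun r hr => (hρker r).mpr (hcon r hr)
    have heq : (f x').ker ⊓ (f y').ker = ρ.ker := le_antisymm hle hZD
    rw [heq, hZAidx] at hD4
    omega
  obtain ⟨r, hrD, hrZ⟩ := hexr
  have hxr : f x' r = 1 := MonoidHom.mem_ker.mp hrD.1
  have hyr : f y' r = 1 := MonoidHom.mem_ker.mp hrD.2
  have hrx : f r x' = 1 := hfsymm _ _ hxr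
  have hry : f r y' = 1 := hfsymm _ _ hyr
  have hrad : ∀ v : ↥H, f r v = 1 := by
    by_contra hcon
    push_neg at hcon
    obtain ⟨v, hv⟩ := hcon
    have h1 : 2 * (⊤ : Subgroup ↥H).index ≤ (f r).ker.index :=
      index_dbl_jr _ _ le_top ⟨v, Subgroup.mem_top v, fun h => hv (MonoidHom.mem_ker.mp h)⟩
    have h2 : 2 * (f r).ker.index ≤ ((f r).ker ⊓ (f x').ker).index :=
      index_dbl_jr _ _ inf_le_left
        ⟨y', MonoidHom.mem_ker.mpr hry, fun h => hxy1 (MonoidHom.mem_ker.mp h.2)⟩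
    have h3 : 2 * ((f r).ker ⊓ (f x').ker).index ≤
        ((f r).ker ⊓ (f x').ker ⊓ (f y').ker).index :=
      index_dbl_jr _ _ inf_le_left
        ⟨x', ⟨MonoidHom.mem_ker.mpr hrx, MonoidHom.mem_ker.mpr (hfself x')⟩,
          fun h => hyx1 (MonoidHom.mem_ker.mp h.2)⟩
    have h4 : 2 * ((f r).ker ⊓ (f x').ker ⊓ (f y').ker).index ≤ ρ.ker.index :=
      index_dbl_jr _ _ (by
        intro w hw
        have hwZ := (hρker w).mp hw
        exact ⟨⟨MonoidHom.mem_ker.mpr (hfZr r w hwZ), MonoidHom.mem_ker.mpr (hfZr x' w hwZ)⟩,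
          MonoidHom.mem_ker.mpr (hfZr y' w hwZ)⟩)
        ⟨r, ⟨⟨MonoidHom.mem_ker.mpr (hfself r), MonoidHom.mem_ker.mpr hxr⟩,
          MonoidHom.mem_ker.mpr hyr⟩, fun h => hrZ ((hρker r).mp h)⟩
    rw [Subgroup.index_top] at h1
    rw [hZAidx] at h4
    omega
  exact hxy1 (hP5 r hrZ hrad x' y')

/-- [MULT] -/
theorem pkgMult : PkgMult.{u} := by
  intro G _ _ hS8 hFus L _ _ Z _ hperf hZc hZ2 ⟨e⟩
  obtain ⟨S⟩ := (inferInstance : Nonempty (Sylow 2 G))
  exact mult_of_abelian G L Z hperf hZc hZ2 e S (mult_abelian G hS8 hFus L Z hZc e S)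

end Cfsg.Agent.Lib.Helper67.JR
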